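import Mathlib
import Cfsg.Agent.Chev.TwTab
import Cfsg.Agent.FG.H93Cyc
import Cfsg.Agent.SpS.Defs

/-! The cyclic tori of order `q ^ 7 - 1` and `q ^ 7 + 1` of `E₇(q)`. -/

set_option autoImplicit false

namespace Cfsg.Agent.HW

open Cfsg.Agent.Chev Cfsg.Lie Cfsg.Lie.ChevalleyDatum Cfsg.Agent.SpS Subgroup

/-- A cyclic torus that is the centraliser of a power of its generator. -/
theorem cyc_cent {D : ChevalleyDatum} [D.Good] (F : Type*) [Field F] [Fintype F]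
    (hinj : Function.Injective (D.stTor (AlgebraicClosure F)))
    (L : List D.Nd) {v : ℕ → D.Lat} {B : ℕ → ℕ → ℤ} {p : ℕ → ℤ} (hc : CycData (D.stRoot.lw L) v B p)
    {N : ℕ} (hN : (N : ℤ) = (Fintype.card F : ℕ) ^ D.rank +
      ∑ k ∈ Finset.range D.rank, p k * (Fintype.card F : ℕ) ^ k) (hNq : N.Coprime (Fintype.card F))
    {a : D.Rt} {m : ℤ} (hm : m ≠ 0) {l : ℕ} {G : D.Nd → ℕ → ℤ}
    (hspan : ∀ i, m • D.wt (D.sr i) = ∑ k ∈ Finset.range l, G i k • (D.stRoot.lw L)^[k] (D.wt a))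
    {r c : ℕ} (hr : N = r * c)
    (h1 : ∀ s : D.Rt, ¬ (r : ℤ) ∣ cycExp D.rank B (Fintype.card F : ℕ) (D.wt s))
    (h2 : ∀ s : D.Rt, s ≠ a →
      (∀ k, D.cw s ⬝ᵥ (D.stRoot.lw L)^[k] (D.wt s) = D.cw a ⬝ᵥ (D.stRoot.lw L)^[k] (D.wt a)) →
      ¬ (r : ℤ) ∣ cycExp D.rank B (Fintype.card F : ℕ) (D.wt s - D.wt a)) :
    ∃ g : D.group F, (∀ k : ℕ, g ^ k = 1 ↔
        ∀ i : D.Nd, (N : ℤ) ∣ cycExp D.rank B (Fintype.card F : ℕ) (D.wt (D.sr i)) * k) ∧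
      ∀ s, g ^ c * s = s * g ^ c → s ∈ zpowers g := by
  obtain ⟨φ, hφ, hL, hS⟩ := D.exists_frob_data F hinj
  have hN1 : (N : AlgebraicClosure F) ≠ 0 := by
    obtain ⟨p, _, _, e, he, hq⟩ := exists_frobenius F
    rw [Ne, CharP.cast_eq_zero_iff _ p]
    intro hd
    rw [hq] at hNq
    exact (Fact.out : p.Prime).one_lt.ne' (Nat.eq_one_of_dvd_coprimes hNq hd (dvd_pow_self p he))
  obtain ⟨ζ, hζ⟩ := exists_primitiveRoot_units _ hN1
  have hN0 : N ≠ 0 := fun e => hN1 (by simp [e])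
  have hc0 : (c : ℤ) ≠ 0 := fun e => hN0 (by rw [hr, Int.natCast_eq_zero.1 e, mul_zero])
  have hW : ∀ s : D.Rt, D.stRoot.lw L (D.wt s) = D.wt ((D.wordW L * 1) s) := fun s => by
    rw [mul_one, ← stRoot_wd]; exact D.stRoot.lw_wt L s
  obtain ⟨Θ, hΘ1, hΘ2⟩ := D.exists_twisted_torus' hL 1
    (fun m hm => by rw [(D.stMap_mem_NN φ hm).2]; simp) L _ (D.mem_twT_iff_stMap hinj hφ _) _
    (fieldHom_injective D _) hS
  have hz := hc.twT_eq_zpowers hN hN0 hζ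
  let χ₀ : twT (AlgebraicClosure F) (D.stRoot.lw L) (Fintype.card F) :=
    ⟨chrExp ζ (cycExp D.rank B (Fintype.card F : ℕ)), hz ▸ mem_zpowers _⟩
  have hrg : Θ.range ≤ zpowers (Θ χ₀) := by
    rintro _ ⟨⟨χ, hχ⟩, rfl⟩
    obtain ⟨k, rfl⟩ := hz ▸ hχ
    exact ⟨k, (map_zpow Θ χ₀ k).symm⟩
  have hv : ∀ (k : ℕ) (u : D.Lat), cv (χ₀ ^ k).1 u = ζ ^ (cycExp D.rank B (Fintype.card F : ℕ) u * k) :=
    fun k u => by rw [SubgroupClass.coe_pow, cv_pow, cv_chrExp, ← zpow_natCast, ← zpow_mul]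
  have hd : ∀ x : ℤ, (N : ℤ) ∣ x * c → (r : ℤ) ∣ x := fun x h => by
    rw [hr, Nat.cast_mul] at h
    exact (mul_dvd_mul_iff_right hc0).1 h
  refine ⟨Θ χ₀, fun k => ?_, fun s hs => hrg ?_⟩
  · rw [← map_pow, hΘ1]
    simp only [hv, hζ.zpow_eq_one_iff_dvd]
  refine hΘ2 {χ₀ ^ c} (fun s => ⟨χ₀ ^ c, rfl, ?_⟩) (fun u hu hcomm hfix => ?_) s ?_
  · rw [hv]
    exact fun e => h1 s (hd _ ((hζ.zpow_eq_one_iff_dvd _).1 e))
  · refine D.eq_one_of_comm_of_fix hW hm hspan hu hcomm ?_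
    by_contra hne
    refine h2 _ hne (D.gram_eq_of_comm hW hu hcomm a) (hd _ ?_)
    rw [← hζ.zpow_eq_one_iff_dvd, map_sub, sub_mul, zpow_sub, mul_inv_eq_one, ← hv, ← hv]
    exact hfix _ rfl a
  · rintro _ rfl
    rwa [map_pow]

/-- An element of prime order whose centraliser is cyclic of odd order. -/
theorem not_om_two {G : Type*} [Group G] [Finite G] {g x : G} {r : ℕ} (hr : r.Prime) (hx : orderOf x = r)
    (hg : Odd (orderOf g)) (hc : ∀ s, x * s = s * x → s ∈ zpowers g) : ¬ Om G (2 * r) := by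
  have := Fact.mk hr
  rintro ⟨y, hy⟩
  have hxg := hc x rfl
  have key : ∀ z ∈ zpowers g, orderOf z = r → ∀ s, Commute z s → s ∈ zpowers g := fun z h1 h2 s h3 => by
    obtain ⟨k, rfl⟩ := mem_zpowers_iff.1
      (FG.H93.mem_zpowers_of_orderOf_dvd_of_mem (C := zpowers g) hxg h1 (hx.trans h2.symm).dvd)
    exact hc s (h3.zpow_left k)
  obtain ⟨P, hP⟩ := (IsPGroup.of_card (n := 1) (G := zpowers x)
    (by rw [Nat.card_zpowers, hx, pow_one])).exists_le_sylow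
  have hxP : x ∈ (P : Subgroup G) := hP (mem_zpowers x)
  have : Nontrivial P := ⟨⟨⟨x, hxP⟩, 1, fun e => hr.ne_one (by
    rw [← hx, orderOf_eq_one_iff]; exact congrArg Subtype.val e)⟩⟩
  have := P.isPGroup'.center_nontrivial
  obtain ⟨n, hn, hcard⟩ := (P.isPGroup'.to_subgroup (center P)).nontrivial_iff_card.1 this
  obtain ⟨z, hz⟩ := exists_prime_orderOf_dvd_card' (G := center P) r (hcard ▸ dvd_pow_self r hn.ne')
  have hz1 : ∀ s ∈ (P : Subgroup G), Commute (z.1 : G) s := fun s hs =>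
    (congrArg Subtype.val (mem_center_iff.1 z.2 ⟨s, hs⟩)).symm
  have hPg : (P : Subgroup G) ≤ zpowers g := fun s hs =>
    key _ (hc _ (hz1 x hxP).symm) (by rw [orderOf_coe, orderOf_coe, hz]) s (hz1 s hs)
  have h1 : orderOf (y ^ 2) = r := by
    rw [orderOf_pow_of_dvd two_ne_zero (hy ▸ dvd_mul_right _ _), hy, Nat.mul_div_cancel_left _ two_pos]
  have h2 : orderOf (y ^ r) = 2 := by
    rw [orderOf_pow_of_dvd hr.ne_zero (hy ▸ dvd_mul_left _ _), hy, Nat.mul_div_cancel _ hr.pos]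
  obtain ⟨Q, hQ⟩ := (IsPGroup.of_card (n := 1) (G := zpowers (y ^ 2))
    (by rw [Nat.card_zpowers, h1, pow_one])).exists_le_sylow
  obtain ⟨h, rfl⟩ := MulAction.exists_smul_eq G Q P
  have h3 : MulAut.conj h (y ^ 2) ∈ zpowers g := hPg (by
    rw [Sylow.coe_subgroup_smul]
    exact smul_mem_pointwise_smul _ _ _ (hQ (mem_zpowers _)))
  have h4 := key _ h3 (by rw [MulEquiv.orderOf_eq, h1]) (MulAut.conj h (y ^ r))
    (((Commute.refl y).pow_pow 2 r).map _)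
  have h5 := orderOf_dvd_of_mem_zpowers h4
  rw [MulEquiv.orderOf_eq, h2] at h5
  exact hg.not_two_dvd_nat h5

/-- coefficient of a product modulo `X ^ 7 - e` -/
def pk (e : ℤ) (u : List ℤ) (c : ℕ → ℤ) (k : ℕ) : ℤ :=
  sumL 7 fun i => (if i ≤ k then 1 else e) * u.getD i 0 * c ((k + 7 - i) % 7)

/-- `u c` is a divisor of `448` modulo `∑ (e X) ^ k`. -/
def Pz (e : ℤ) (u : List ℤ) (c : ℕ → ℤ) : Prop :=
  (∀ k < 6, pk e u c (k + 1) = e ^ (k + 1) * pk e u c 6) ∧ pk e u c 0 - pk e u c 6 ∣ 448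

instance (e : ℤ) (u : List ℤ) (c : ℕ → ℤ) : Decidable (Pz e u c) := by unfold Pz; infer_instance

theorem Pz.dvd {e : ℤ} {u : List ℤ} {c : ℕ → ℤ} (h : Pz e u c) {r q : ℤ} (h7 : r ∣ q ^ 7 - e)
    (hΦ : r ∣ ∑ k ∈ Finset.range 7, (e * q) ^ k) (h0 : r ∣ ∑ k ∈ Finset.range 7, c k * q ^ k) :
    r ∣ 448 := by
  obtain ⟨h1, h2⟩ := h
  refine Dvd.dvd.trans ?_ h2
  have h3 : ∑ k ∈ Finset.range 7, pk e u c k * q ^ k =
      pk e u c 0 - pk e u c 6 + pk e u c 6 * ∑ k ∈ Finset.range 7, (e * q) ^ k := by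
    rw [Finset.sum_range_succ', Finset.sum_range_succ' fun k => (e * q) ^ k, mul_add, Finset.mul_sum,
      Finset.sum_congr rfl fun k hk => by rw [h1 k (Finset.mem_range.1 hk)]]
    simp only [Finset.sum_range_succ, Finset.sum_range_zero]
    ring
  have h4 : ∑ k ∈ Finset.range 7, pk e u c k * q ^ k =
      (∑ i ∈ Finset.range 7, u.getD i 0 * q ^ i) * (∑ k ∈ Finset.range 7, c k * q ^ k) -
        (∑ k ∈ Finset.range 7, (∑ i ∈ Finset.range 7,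
          if i ≤ k then 0 else u.getD i 0 * c ((k + 7 - i) % 7)) * q ^ k) * (q ^ 7 - e) := by
    simp only [pk, sumL_eq, Finset.sum_range_succ, Finset.sum_range_zero]
    norm_num
    ring
  rw [← dvd_add_left (hΦ.mul_left (pk e u c 6)), ← h3, h4]
  exact (h0.mul_left _).sub (h7.mul_left _)

/-- The conditions on the roots. -/
def OK7 (T : TorTab) (e : ℤ) (u1 : List (List ℤ)) (u2 : List (ℕ × List ℤ)) (WL : List ℤ → List ℤ) : Prop :=
  T.a < chevE7.nroots ∧ T.m ≠ 0 ∧ T.p = [-e, 0, 0, 0, 0, 0, 0] ∧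
  (∀ i < chevE7.rank, ∀ j < chevE7.rank, T.m * chevE7.cartan j (chevE7.simple i) =
      sumL chevE7.rank fun k => tab T.G i k * (WL^[k] (chevE7.wtL T.a)).getD j 0) ∧
  (∀ j < chevE7.rank, 2 * tab T.V 0 j =
    sumL chevE7.rank fun i => T.g.getD i 0 * chevE7.cartan j (chevE7.simple i)) ∧
  (∀ i < chevE7.rank, (2 : ℤ) ∣ chevE7.expL T.B 1 (chevE7.simple i)) ∧
  (∀ r < chevE7.nroots, Pz e (u1.getD r []) (chevE7.coL T.B r)) ∧
  ∀ r < chevE7.nroots, r = T.a ∨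
    (∃ k < 7, chevE7.cwL r (WL^[k] (chevE7.wtL r)) ≠ chevE7.cwL T.a (WL^[k] (chevE7.wtL T.a))) ∨
    ∃ x ∈ u2, x.1 = r ∧ Pz e x.2 fun k => chevE7.coL T.B r k - chevE7.coL T.B T.a k

set_option synthInstance.maxSize 1024 in
instance (T : TorTab) (e : ℤ) (u1 : List (List ℤ)) (u2 : List (ℕ × List ℤ)) (WL : List ℤ → List ℤ) :
    Decidable (OK7 T e u1 u2 WL) := by
  unfold OK7; infer_instance

theorem e7_tab {F : Type*} [Field F] [Fintype F] (L : List chevE7.Nd) {T : TorTab} {e : ℤ} {u1 : List (List ℤ)}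
    {u2 : List (ℕ × List ℤ)} (h1 : T.OK1 chevE7.rank (chevE7.lwL (L.map Fin.val)))
    (h2 : OK7 T e u1 u2 (chevE7.lwL (L.map Fin.val))) {N r c : ℕ}
    (hN : (N : ℤ) = (Fintype.card F : ℕ) ^ 7 - e) (hr : N = r * c) (h3 : ¬ r ∣ 448)
    (hΦ : (r : ℤ) ∣ ∑ k ∈ Finset.range 7, (e * (Fintype.card F : ℕ)) ^ k) :
    ∃ g : chevE7.group F, N ∣ 2 * orderOf g ∧ orderOf g ∣ N ∧
      (∀ M, Odd (Fintype.card F) → N = 2 * M → orderOf g ∣ M) ∧
      ∀ s, g ^ c * s = s * g ^ c → s ∈ zpowers g := by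
  have hWL := chevE7.lw_toLat L
  have hc := h1.cycData hWL
  obtain ⟨ha, hm, hp, hspan, hd, h4, h5, h6⟩ := h2
  have hN' : (N : ℤ) = T.N chevE7.rank (Fintype.card F : ℕ) := by
    rw [hN]
    change _ = T.N 7 _
    simp [TorTab.N, hp, sumL, List.range_succ]
    ring
  have h7 : (r : ℤ) ∣ (Fintype.card F : ℕ) ^ 7 - e := by
    rw [← hN, hr]; push_cast; exact dvd_mul_right _ _
  have h8 : ¬ (r : ℤ) ∣ 448 := fun k => h3 (by exact_mod_cast k)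
  obtain ⟨g, k1, k2⟩ := cyc_cent F (stTor_injective_E7 _) L hc (hN'.trans (TorTab.N_eq _ _))
    (h1.coprime hN') (a := ⟨T.a, ha⟩) hm (chevE7.span_of_check hWL ⟨T.a, ha⟩ T.m T.G hspan) hr
    (fun s k => h8 ((h5 s s.2).dvd h7 hΦ (by simp only [cycExp_apply, ← coL_eq] at k; exact k)))
    (fun s hs hg k => by
      rcases h6 s s.2 with k3 | ⟨j, -, k3⟩ | ⟨x, -, -, k3⟩
      · exact hs (Fin.ext k3)
      · refine k3 ?_
        rw [cwL_eq, cwL_eq, ← iterate_toLat hWL, ← iterate_toLat hWL, toLat_wtL, toLat_wtL, hg]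
      · exact h8 (k3.dvd h7 hΦ (by simp only [cycExp_apply, cycCo_sub, ← coL_eq] at k; exact k)))
  refine ⟨g, ?_, orderOf_dvd_of_pow_eq_one ((k1 N).2 fun i => dvd_mul_left _ _), fun M ho hM => ?_, k2⟩
  · exact_mod_cast chevE7.dvd_of_comb hc h1.2.2.2.2.1 T.g hd ((k1 _).1 (pow_orderOf_eq_one g))
  · refine orderOf_dvd_of_pow_eq_one ((k1 M).2 fun i => ?_)
    rw [hM]
    push_cast
    refine mul_dvd_mul ?_ dvd_rfl
    have k3 := (ZMod.intCast_zmod_eq_zero_iff_dvd _ 2).2 (h4 i i.2)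
    have k4 : ((Fintype.card F : ℕ) : ZMod 2) = 1 := (ZMod.natCast_eq_one_iff_odd).2 ho
    rw [sr_val, ← expL_eq, ← Nat.cast_two, ← ZMod.intCast_zmod_eq_zero_iff_dvd, ← k3]
    simp only [ChevalleyDatum.expL, sumL_eq]
    push_cast
    rw [k4]

end Cfsg.Agent.HW
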